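import Cfsg.Agent.CommutingSLTwo.Basic

set_option autoImplicit false

/-!
A pair of elementwise commuting subgroups, each isomorphic to `SL(2, F)`, meeting in `⟨j⟩`.
-/

namespace CfsgLib.CommutingSLTwo

variable {G : Type*} [Group G]

/-- Image of an element of the subgroup. -/
theorem eq_one_or_eq_of_mem_zpowers {j x : G} (hj : orderOf j = 2)
    (hx : x ∈ Subgroup.zpowers j) : x = 1 ∨ x = j := by
  obtain ⟨k, rfl⟩ := Subgroup.mem_zpowers_iff.1 hx
  rw [← zpow_mod_orderOf, hj]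
  rcases Int.emod_two_eq_zero_or_one k with h | h
  · exact Or.inl (by rw [show ((2 : ℕ) : ℤ) = 2 from rfl, h, zpow_zero])
  · exact Or.inr (by rw [show ((2 : ℕ) : ℤ) = 2 from rfl, h, zpow_one])

theorem mem_sup_exists {L₁ L₂ : Subgroup G} (hc : ∀ x ∈ L₁, ∀ y ∈ L₂, x * y = y * x) {y : G}
    (hy : y ∈ L₁ ⊔ L₂) : ∃ a ∈ L₁, ∃ b ∈ L₂, a * b = y := by
  have comm : ∀ (a : L₁) (b : L₂), Commute (L₁.subtype a) (L₂.subtype b) :=
    fun a b => hc a a.2 b b.2
  have h : y ∈ (MonoidHom.noncommCoprod L₁.subtype L₂.subtype comm).range := by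
    rw [MonoidHom.noncommCoprod_range, Subgroup.range_subtype, Subgroup.range_subtype]
    exact hy
  obtain ⟨⟨a, b⟩, rfl⟩ := h
  exact ⟨a, a.2, b, b.2, rfl⟩

variable {F : Type*} [Field F] {L : Subgroup G}

/-- The involution of `L ≅ SL2` corresponds to `-1`. -/
theorem map_j_eq_negOne (h2 : (2 : F) ≠ 0) (e : L ≃* SL2 F) {j : G} (hj : orderOf j = 2)
    (hjL : j ∈ L) : e ⟨j, hjL⟩ = negOne F := by
  have hsq : e ⟨j, hjL⟩ * e ⟨j, hjL⟩ = 1 := by
    rw [← map_mul, show (⟨j, hjL⟩ : L) * ⟨j, hjL⟩ = 1 from Subtype.ext (by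
      have := pow_orderOf_eq_one j
      rw [hj, pow_two] at this
      exact this), map_one]
  rcases sq_eq_one h2 _ hsq with h | h
  · exfalso
    have : (⟨j, hjL⟩ : L) = 1 := e.map_eq_one_iff.1 h
    have hj1 : j = 1 := congrArg Subtype.val this
    rw [hj1, orderOf_one] at hj
    omega
  · exact h

/-- Elements of `L` squaring to one lie in `⟨j⟩`. -/
theorem sq_one_mem (h2 : (2 : F) ≠ 0) (e : L ≃* SL2 F) {j : G} (hj : orderOf j = 2)
    (hjL : j ∈ L) {a : G} (ha : a ∈ L) (h : a * a = 1) : a = 1 ∨ a = j := by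
  have hsq : e ⟨a, ha⟩ * e ⟨a, ha⟩ = 1 := by
    rw [← map_mul, show (⟨a, ha⟩ : L) * ⟨a, ha⟩ = 1 from Subtype.ext h, map_one]
  rcases sq_eq_one h2 _ hsq with h | h
  · exact Or.inl (congrArg Subtype.val (e.map_eq_one_iff.1 h))
  · rw [← map_j_eq_negOne h2 e hj hjL] at h
    exact Or.inr (congrArg Subtype.val (e.injective h))

/-- There is a square root of `j` in `L`, unique up to conjugation in `L`. -/
theorem exists_sqrt_j [Fintype F] (hF : Odd (Fintype.card F)) (e : L ≃* SL2 F) {j : G}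
    (hj : orderOf j = 2) (hjL : j ∈ L) :
    ∃ r ∈ L, r * r = j ∧ ∀ a ∈ L, a * a = j → ∃ g ∈ L, g * r * g⁻¹ = a := by
  have h2 := two_ne_zero_of_odd hF
  have hje := map_j_eq_negOne h2 e hj hjL
  refine ⟨(e.symm (rot F) : L), SetLike.coe_mem _, ?_, fun a ha haj => ?_⟩
  · rw [← Subgroup.coe_mul, ← map_mul, rot_sq, ← hje, e.symm_apply_apply]
  · have : e ⟨a, ha⟩ * e ⟨a, ha⟩ = negOne F := by
      rw [← map_mul, ← hje]; exact congrArg e (Subtype.ext haj)
    obtain ⟨P, hP⟩ := exists_conj_rot hF _ this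
    refine ⟨(e.symm P : L), SetLike.coe_mem _, ?_⟩
    rw [← Subgroup.coe_inv, ← Subgroup.coe_mul, ← Subgroup.coe_mul, ← map_inv, ← map_mul,
      ← map_mul, hP, e.symm_apply_apply]

/-- The first projection of a subgroup of `L₁L₂`, read in `SL2`. -/
def projSet {L₁ : Subgroup G} (L₂ : Subgroup G) (e : L₁ ≃* SL2 F)
    (hc : ∀ x ∈ L₁, ∀ y ∈ L₂, x * y = y * x) (K : Subgroup G) : Subgroup (SL2 F) where
  carrier := {g | ∃ b ∈ L₂, ((e.symm g : L₁) : G) * b ∈ K}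
  one_mem' := ⟨1, one_mem _, by simp⟩
  mul_mem' {g h} hg hh := by
    obtain ⟨b, hb, hgK⟩ := hg
    obtain ⟨b', hb', hhK⟩ := hh
    refine ⟨b * b', mul_mem hb hb', ?_⟩
    have : ((e.symm (g * h) : L₁) : G) * (b * b') =
        ((e.symm g : L₁) : G) * b * (((e.symm h : L₁) : G) * b') := by
      rw [map_mul, Subgroup.coe_mul]
      have := hc _ (e.symm h).2 b hb
      calc ((e.symm g : L₁) : G) * (e.symm h : L₁) * (b * b')
          = ((e.symm g : L₁) : G) * (((e.symm h : L₁) : G) * b) * b' := by group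
        _ = ((e.symm g : L₁) : G) * (b * ((e.symm h : L₁) : G)) * b' := by rw [this]
        _ = _ := by group
    rw [this]
    exact mul_mem hgK hhK
  inv_mem' {g} hg := by
    obtain ⟨b, hb, hgK⟩ := hg
    refine ⟨b⁻¹, inv_mem hb, ?_⟩
    rw [map_inv, Subgroup.coe_inv, ← mul_inv_rev, ← hc _ (e.symm g).2 b hb]
    exact inv_mem hgK

theorem mem_projSet {L₁ L₂ : Subgroup G} (e : L₁ ≃* SL2 F)
    (hc : ∀ x ∈ L₁, ∀ y ∈ L₂, x * y = y * x) {K : Subgroup G} {g : SL2 F} :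
    g ∈ projSet L₂ e hc K ↔ ∃ b ∈ L₂, ((e.symm g : L₁) : G) * b ∈ K := Iff.rfl

theorem projSet_normal {L₁ L₂ : Subgroup G} (e : L₁ ≃* SL2 F)
    (hc : ∀ x ∈ L₁, ∀ y ∈ L₂, x * y = y * x) {K : Subgroup G}
    (hK : ∀ l ∈ L₁, ∀ k ∈ K, l * k * l⁻¹ ∈ K) : (projSet L₂ e hc K).Normal := by
  constructor
  rintro g ⟨b, hb, hgK⟩ h
  refine ⟨b, hb, ?_⟩
  have h1 := hK _ (e.symm h).2 _ hgK
  convert h1 using 1
  rw [map_mul, map_mul, map_inv, Subgroup.coe_mul, Subgroup.coe_mul, Subgroup.coe_inv]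
  have := hc _ (inv_mem (e.symm h).2) b hb
  calc ((e.symm h : L₁) : G) * (e.symm g : L₁) * ((e.symm h : L₁) : G)⁻¹ * b
      = ((e.symm h : L₁) : G) * (e.symm g : L₁) * (((e.symm h : L₁) : G)⁻¹ * b) := by group
    _ = ((e.symm h : L₁) : G) * (e.symm g : L₁) * (b * ((e.symm h : L₁) : G)⁻¹) := by rw [this]
    _ = _ := by group

/-- Two commuting normal subgroups with product `L₁L₂`: one of them lies in `L₂`. -/
theorem le_or_le (h2 : (2 : F) ≠ 0) {L₁ L₂ : Subgroup G} (e : L₁ ≃* SL2 F)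
    (hc : ∀ x ∈ L₁, ∀ y ∈ L₂, x * y = y * x) {j : G} (hj : orderOf j = 2)
    (hm : L₁ ⊓ L₂ = Subgroup.zpowers j) (M N : Subgroup G) (hMN : M ⊔ N = L₁ ⊔ L₂)
    (hcMN : ∀ x ∈ M, ∀ y ∈ N, x * y = y * x)
    (hMn : ∀ l ∈ L₁, ∀ k ∈ M, l * k * l⁻¹ ∈ M) (hNn : ∀ l ∈ L₁, ∀ k ∈ N, l * k * l⁻¹ ∈ N) :
    M ≤ L₂ ∨ N ≤ L₂ := by
  have hjm : j ∈ L₁ ⊓ L₂ := hm ▸ Subgroup.mem_zpowers j
  haveI := projSet_normal e hc hMn
  haveI := projSet_normal e hc hNn
  have hje := map_j_eq_negOne h2 e hj hjm.1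
  have hsplit : ∀ {a a' b b' : G}, a ∈ L₁ → a' ∈ L₁ → b ∈ L₂ → b' ∈ L₂ →
      a * b = a' * b' → a = a' ∨ a = j * a' := by
    intro a a' b b' ha ha' hb hb' h
    have heq : a'⁻¹ * a = b' * b⁻¹ := by
      calc a'⁻¹ * a = a'⁻¹ * (a * b) * b⁻¹ := by group
        _ = a'⁻¹ * (a' * b') * b⁻¹ := by rw [h]
        _ = b' * b⁻¹ := by group
    have hmem : a'⁻¹ * a ∈ L₁ ⊓ L₂ :=
      Subgroup.mem_inf.2 ⟨L₁.mul_mem (L₁.inv_mem ha') ha,
        heq ▸ L₂.mul_mem hb' (L₂.inv_mem hb)⟩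
    rw [hm] at hmem
    rcases eq_one_or_eq_of_mem_zpowers hj hmem with h1 | h1
    · exact Or.inl (inv_mul_eq_one.1 h1).symm
    · right
      rw [hc a' ha' j hjm.2 |>.symm, ← h1]
      group
  have htop : projSet L₂ e hc M ⊔ projSet L₂ e hc N = ⊤ := by
    rw [eq_top_iff]
    intro g _
    obtain ⟨x, hx, y, hy, hxy⟩ := mem_sup_exists hcMN
      (show ((e.symm g : L₁) : G) ∈ M ⊔ N from hMN ▸ Subgroup.mem_sup_left (e.symm g).2)
    obtain ⟨a, ha, b, hb, rfl⟩ := mem_sup_exists hc (hMN ▸ Subgroup.mem_sup_left hx : x ∈ L₁ ⊔ L₂)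
    obtain ⟨a', ha', b', hb', rfl⟩ :=
      mem_sup_exists hc (hMN ▸ Subgroup.mem_sup_right hy : y ∈ L₁ ⊔ L₂)
    have hA : e ⟨a, ha⟩ ∈ projSet L₂ e hc M := ⟨b, hb, by simpa using hx⟩
    have hB : e ⟨a', ha'⟩ ∈ projSet L₂ e hc N := ⟨b', hb', by simpa using hy⟩
    have h0 : ((e.symm g : L₁) : G) * 1 = (a * a') * (b * b') := by
      rw [mul_one, ← hxy]
      calc a * b * (a' * b') = a * (b * a') * b' := by group
        _ = a * (a' * b) * b' := by rw [hc a' ha' b hb]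
        _ = _ := by group
    rcases hsplit (e.symm g).2 (mul_mem ha ha') (one_mem _) (mul_mem hb hb') h0 with h | h
    · have hg : g = e ⟨a, ha⟩ * e ⟨a', ha'⟩ := by
        rw [← map_mul]
        exact e.symm.injective (by rw [e.symm_apply_apply]; exact Subtype.ext h)
      exact hg ▸ mul_mem (Subgroup.mem_sup_left hA) (Subgroup.mem_sup_right hB)
    · have hg : g = negOne F * (e ⟨a, ha⟩ * e ⟨a', ha'⟩) := by
        rw [← hje, ← map_mul, ← map_mul]
        exact e.symm.injective (by rw [e.symm_apply_apply]; exact Subtype.ext h)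
      have hn : negOne F ∈ projSet L₂ e hc M := by
        refine ⟨j⁻¹, inv_mem hjm.2, ?_⟩
        rw [← hje, e.symm_apply_apply]
        simp
      exact hg ▸ mul_mem (Subgroup.mem_sup_left hn)
        (mul_mem (Subgroup.mem_sup_left hA) (Subgroup.mem_sup_right hB))
  have hcc : ∀ g ∈ projSet L₂ e hc M, ∀ h ∈ projSet L₂ e hc N, SignEq (g * h) (h * g) := by
    rintro g ⟨b, hb, hgM⟩ h ⟨b', hb', hhN⟩
    have h0 := hcMN _ hgM _ hhN
    have h1 : ((e.symm g : L₁) : G) * (e.symm h : L₁) * (b * b') =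
        ((e.symm h : L₁) : G) * (e.symm g : L₁) * (b' * b) := by
      calc ((e.symm g : L₁) : G) * (e.symm h : L₁) * (b * b')
          = ((e.symm g : L₁) : G) * (((e.symm h : L₁) : G) * b) * b' := by group
        _ = ((e.symm g : L₁) : G) * (b * ((e.symm h : L₁) : G)) * b' := by
          rw [hc _ (e.symm h).2 b hb]
        _ = ((e.symm g : L₁) : G) * b * (((e.symm h : L₁) : G) * b') := by group
        _ = ((e.symm h : L₁) : G) * b' * (((e.symm g : L₁) : G) * b) := h0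
        _ = ((e.symm h : L₁) : G) * (b' * ((e.symm g : L₁) : G)) * b := by group
        _ = ((e.symm h : L₁) : G) * (((e.symm g : L₁) : G) * b') * b := by
          rw [hc _ (e.symm g).2 b' hb']
        _ = _ := by group
    rcases hsplit (mul_mem (e.symm g).2 (e.symm h).2) (mul_mem (e.symm h).2 (e.symm g).2)
      (mul_mem hb hb') (mul_mem hb' hb) h1 with h2' | h2'
    · exact Or.inl (e.symm.injective (Subtype.ext (by simpa using h2')))
    · refine Or.inr (e.symm.injective (Subtype.ext ?_))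
      rw [← hje, map_mul, map_mul, map_mul, e.symm_apply_apply]
      simpa using h2'
  have main : ∀ K : Subgroup G, K ≤ L₁ ⊔ L₂ →
      (∀ g ∈ projSet L₂ e hc K, g = 1 ∨ g = negOne F) → K ≤ L₂ := by
    intro K hK hcent k hk
    obtain ⟨a, ha, b, hb, rfl⟩ := mem_sup_exists hc (hK hk)
    rcases hcent (e ⟨a, ha⟩) ⟨b, hb, by simpa using hk⟩ with h | h
    · have : a = 1 := congrArg Subtype.val (e.map_eq_one_iff.1 h)
      rw [this, one_mul]; exact hb
    · rw [← hje] at h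
      have : a = j := congrArg Subtype.val (e.injective h)
      rw [this]; exact mul_mem hjm.2 hb
  rcases central_of_commute_up_to_sign h2 _ _ htop hcc with h | h
  · exact Or.inl (main M (hMN ▸ le_sup_left) h)
  · exact Or.inr (main N (hMN ▸ le_sup_right) h)

end CfsgLib.CommutingSLTwo
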