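import Cfsg.Agent.CommutingSLTwo.Pair
import Cfsg.Agent.SL2.Torus
import Cfsg.Agent.ZStar.Theorem

/-!
A pair of commuting `SL₂`s interchanged by an element `n` with `n² = j`: the involution `j` is
isolated.
-/

set_option autoImplicit false

namespace CfsgLib.CommutingSLTwo

variable {F : Type*} [Field F]

theorem negOne_eq_neg_one : negOne F = (-1 : SL2 F) := by
  apply ext4 <;> simp [negOne]

/-- A `2`-element with `tr² = 4` squares to one. -/
theorem sq_eq_one_of_tr (h2 : (2 : F) ≠ 0) {g : SL2 F} {k : ℕ} (hk : g ^ 2 ^ k = 1)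
    (ht : (g.1 0 0 + g.1 1 1) ^ 2 = 4) : g * g = 1 := by
  set u := g * g with hu
  have hd := det_eq g
  have htu : u.1 0 0 + u.1 1 1 = 2 := by
    rw [hu, mul_00, mul_11]
    linear_combination ht - 2 * hd
  have hdu := det_eq u
  have hpow : u ^ 2 ^ k = 1 := by rw [hu, ← pow_two, ← pow_mul, mul_comm, pow_mul, hk, one_pow]
  clear_value u
  have key : ∀ n : ℕ, (u ^ n).1 0 0 = n * u.1 0 0 + (1 - n) ∧ (u ^ n).1 0 1 = n * u.1 0 1 ∧
      (u ^ n).1 1 0 = n * u.1 1 0 ∧ (u ^ n).1 1 1 = n * u.1 1 1 + (1 - n) := by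
    intro n
    induction n with
    | zero => simp
    | succ n ih =>
      obtain ⟨h00, h01, h10, h11⟩ := ih
      rw [pow_succ, mul_00, mul_01, mul_10, mul_11, h00, h01, h10, h11]
      push_cast
      refine ⟨?_, ?_, ?_, ?_⟩
      · linear_combination (n : F) * u.1 0 0 * htu - (n : F) * hdu
      · linear_combination (n : F) * u.1 0 1 * htu
      · linear_combination (n : F) * u.1 1 0 * htu
      · linear_combination (n : F) * u.1 1 1 * htu - (n : F) * hdu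
  obtain ⟨h00, h01, h10, h11⟩ := key (2 ^ k)
  have hn : (((2 : ℕ) ^ k : ℕ) : F) ≠ 0 := by push_cast; exact pow_ne_zero k h2
  rw [hpow] at h00 h01 h10 h11
  simp only [one_00, one_01, one_10, one_11] at h00 h01 h10 h11
  apply ext4
  · rw [one_00]
    exact mul_left_cancel₀ hn (by linear_combination -h00)
  · rw [one_01]
    exact (mul_eq_zero.1 h01.symm).resolve_left hn
  · rw [one_10]
    exact (mul_eq_zero.1 h10.symm).resolve_left hn
  · rw [one_11]
    exact mul_left_cancel₀ hn (by linear_combination -h11)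

/-- An element of maximal `2`-power order in `SL₂`, a square root of `-1` among its powers and an
element of order four inverting it. -/
theorem exists_max_two_element [Fintype F] (hF : Odd (Fintype.card F)) :
    ∃ (k : ℕ) (y b : SL2 F), (∀ u : SL2 F, (∃ i : ℕ, u ^ 2 ^ i = 1) → u ^ 2 ^ (k + 2) = 1) ∧
      y ^ 2 ^ (k + 1) = negOne F ∧ b * b = negOne F ∧ b * y * b⁻¹ = y⁻¹ := by
  classical
  have h2 := two_ne_zero_of_odd hF
  let : Fintype (SL2 F) := Fintype.ofFinite _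
  obtain ⟨y, hy, hmax⟩ := Finset.exists_max_image
    (Finset.univ.filter fun u : SL2 F => ∃ i : ℕ, u ^ 2 ^ i = 1) (fun u => orderOf u)
    ⟨1, by simp⟩
  obtain ⟨i, hi⟩ := (Finset.mem_filter.1 hy).2
  obtain ⟨m, -, hm⟩ := (Nat.dvd_prime_pow Nat.prime_two).1 (orderOf_dvd_of_pow_eq_one hi)
  -- the order is at least four
  have hrot : rot F ^ 2 ^ 2 = 1 := by
    show rot F ^ (2 * 2) = 1
    rw [pow_mul, pow_two (rot F), rot_sq, pow_two, negOne_mul_negOne]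
  have hge : 4 ≤ orderOf y := by
    have h4 : orderOf (rot F) = 2 ^ (1 + 1) := by
      haveI : Fact (Nat.Prime 2) := ⟨Nat.prime_two⟩
      refine orderOf_eq_prime_pow ?_ hrot
      rw [pow_one, pow_two, rot_sq]
      exact negOne_ne_one h2
    have := hmax (rot F) (Finset.mem_filter.2 ⟨Finset.mem_univ _, 2, hrot⟩)
    rw [h4] at this
    exact this
  obtain ⟨k, rfl⟩ : ∃ k, m = k + 2 := by
    refine ⟨m - 2, ?_⟩
    by_contra hlt
    have : 2 ^ m ≤ 2 ^ 1 := Nat.pow_le_pow_right (by norm_num) (by omega)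
    omega
  have hexp : ∀ u : SL2 F, (∃ i : ℕ, u ^ 2 ^ i = 1) → u ^ 2 ^ (k + 2) = 1 := by
    intro u hu
    have := hmax u (Finset.mem_filter.2 ⟨Finset.mem_univ _, hu⟩)
    obtain ⟨i, hi⟩ := hu
    obtain ⟨l, -, hl⟩ := (Nat.dvd_prime_pow Nat.prime_two).1 (orderOf_dvd_of_pow_eq_one hi)
    rw [hl, hm] at this
    apply orderOf_dvd_iff_pow_eq_one.1
    rw [hl]
    exact pow_dvd_pow 2 ((Nat.pow_le_pow_iff_right (by norm_num)).1 this)
  have hne : ∀ j : ℕ, j < k + 2 → y ^ 2 ^ j ≠ 1 := by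
    intro j hj h
    have := Nat.le_of_dvd (by positivity) (orderOf_dvd_of_pow_eq_one h)
    rw [hm] at this
    have := (Nat.pow_le_pow_iff_right (by norm_num)).1 this
    omega
  have hneg : y ^ 2 ^ (k + 1) = negOne F := by
    rcases sq_eq_one h2 (y ^ 2 ^ (k + 1))
      (by rw [← pow_add, ← two_mul, ← pow_succ', ← hm, pow_orderOf_eq_one]) with h | h
    · exact absurd h (hne _ (by omega))
    · exact h
  have htr : CfsgLib.SL2.tr y ^ 2 ≠ 4 := by
    intro h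
    exact hne 1 (by omega) (by rw [pow_one, pow_two]; exact sq_eq_one_of_tr h2 hi h)
  obtain ⟨b, hb, hbb, -⟩ := CfsgLib.SL2.exists_inverting htr
  exact ⟨k, y, b, hexp, hneg, by rw [negOne_eq_neg_one]; exact hbb, hb⟩

variable {G : Type*} [Group G]

theorem mem_two_elements {L₁ L₂ : Subgroup G} (hc : ∀ x ∈ L₁, ∀ y ∈ L₂, x * y = y * x) {j : G}
    (hj : orderOf j = 2) (hm : L₁ ⊓ L₂ = Subgroup.zpowers j) {u v : G} (hu : u ∈ L₁) (hv : v ∈ L₂)
    {n : ℕ} (h : (u * v) ^ n = 1) : (u ^ n = 1 ∨ u ^ n = j) ∧ (v ^ n = 1 ∨ v ^ n = j) := by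
  rw [(show Commute u v from hc u hu v hv).mul_pow] at h
  have hu' := eq_inv_of_mul_eq_one_left h
  have h1 : u ^ n ∈ L₁ ⊓ L₂ := Subgroup.mem_inf.2
    ⟨L₁.pow_mem hu n, hu' ▸ L₂.inv_mem (L₂.pow_mem hv n)⟩
  rw [hm] at h1
  refine ⟨eq_one_or_eq_of_mem_zpowers hj h1, ?_⟩
  have hjj : j⁻¹ = j := by
    apply inv_eq_of_mul_eq_one_right
    have := pow_orderOf_eq_one j
    rw [hj, pow_two] at this
    exact this
  have hv' := eq_inv_of_mul_eq_one_right h
  rcases eq_one_or_eq_of_mem_zpowers hj h1 with h2 | h2 <;> rw [hv', h2]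
  · exact Or.inl inv_one
  · exact Or.inr hjj

/-- The central involution of a swapped pair with `n² = j` is isolated. -/
theorem isIsolated_of_swap [Finite G] [Fintype F] (hF : Odd (Fintype.card F))
    {E : Type*} [Field E] [Fintype E] (hE : Odd (Fintype.card E)) {L₁ L₂ : Subgroup G}
    (e₁ : ↥L₁ ≃* SL2 F) (e₂ : ↥L₂ ≃* SL2 E)
    (hc : ∀ x ∈ L₁, ∀ y ∈ L₂, x * y = y * x) {j : G} (hj : orderOf j = 2)
    (hm : L₁ ⊓ L₂ = Subgroup.zpowers j) (hle : L₁ ⊔ L₂ ≤ Subgroup.centralizer ({j} : Set G))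
    (hi : (L₁ ⊔ L₂).relIndex (Subgroup.centralizer ({j} : Set G)) = 2) {n : G}
    (hn : n ∈ Subgroup.centralizer ({j} : Set G)) (hn2 : n ^ 2 = j)
    (hswap : L₁.map (MulAut.conj n).toMonoidHom = L₂) : Cfsg.IsIsolated j := by
  have hjm : j ∈ L₁ ⊓ L₂ := hm ▸ Subgroup.mem_zpowers j
  have h2 := two_ne_zero_of_odd hF
  have hjj : j * j = 1 := by
    have := pow_orderOf_eq_one j
    rw [hj, pow_two] at this
    exact this
  have hj1 : j ≠ 1 := fun h => by rw [h, orderOf_one] at hj; omega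
  have hji : j⁻¹ = j := inv_eq_of_mul_eq_one_right hjj
  obtain ⟨r₀, hr₀, hr₀2, hru⟩ := exists_sqrt_j hF e₁ hj hjm.1
  obtain ⟨s, hs, hss, hsu⟩ := exists_sqrt_j hE e₂ hj hjm.2
  set C := Subgroup.centralizer ({j} : Set G) with hC
  have hYC : ∀ l ∈ L₁ ⊔ L₂, l * j = j * l := fun l hl =>
    Subgroup.mem_centralizer_singleton_iff.1 (hle hl)
  -- conjugation by `n`
  have h12 : ∀ a ∈ L₁, n * a * n⁻¹ ∈ L₂ := fun a ha => hswap ▸ ⟨a, ha, rfl⟩
  have h12' : ∀ b ∈ L₂, n⁻¹ * b * n ∈ L₁ := fun b hb => by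
    rw [← hswap] at hb
    obtain ⟨a, ha, rfl⟩ := hb
    show n⁻¹ * (n * a * n⁻¹) * n ∈ L₁
    rw [show n⁻¹ * (n * a * n⁻¹) * n = a by group]
    exact ha
  have hnn : n * n = j := by rw [← pow_two]; exact hn2
  have hjL : ∀ a ∈ L₁ ⊔ L₂, (n * n) * a * (n * n)⁻¹ = a := fun a ha => by
    rw [hnn, hji, ← hYC a ha, mul_assoc, hjj, mul_one]
  have h21 : ∀ b ∈ L₂, n * b * n⁻¹ ∈ L₁ := fun b hb => by
    have h := h12' b hb
    have h' : n * b * n⁻¹ = n⁻¹ * b * n := by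
      have e := hjL (n⁻¹ * b * n) (Subgroup.mem_sup_left h)
      calc n * b * n⁻¹ = n * n * (n⁻¹ * b * n) * (n * n)⁻¹ := by group
        _ = n⁻¹ * b * n := e
    rw [h']; exact h
  have hnY : n ∉ L₁ ⊔ L₂ := by
    intro h
    obtain ⟨a, ha, b, hb, rfl⟩ := mem_sup_exists hc h
    have hr : r₀ ∈ L₁ ⊓ L₂ := by
      refine Subgroup.mem_inf.2 ⟨hr₀, ?_⟩
      have hr2 := h12 (a⁻¹ * r₀ * a) (mul_mem (mul_mem (inv_mem ha) hr₀) ha)
      have h' : (a * b) * (a⁻¹ * r₀ * a) * (a * b)⁻¹ = r₀ := by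
        have hb' := hc (a⁻¹ * r₀ * a) (mul_mem (mul_mem (inv_mem ha) hr₀) ha) b hb
        calc (a * b) * (a⁻¹ * r₀ * a) * (a * b)⁻¹
            = a * (b * (a⁻¹ * r₀ * a)) * b⁻¹ * a⁻¹ := by group
          _ = a * ((a⁻¹ * r₀ * a) * b) * b⁻¹ * a⁻¹ := by rw [hb']
          _ = r₀ := by group
      rwa [h'] at hr2
    rw [hm] at hr
    rcases eq_one_or_eq_of_mem_zpowers hj hr with h' | h' <;> rw [h'] at hr₀2
    · rw [one_mul] at hr₀2; exact hj1 hr₀2.symm
    · rw [hjj] at hr₀2; exact hj1 hr₀2.symm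
  -- all involutions of the centralizer lie in the product
  have hinvY : ∀ w ∈ C, w * w = 1 → w ∈ L₁ ⊔ L₂ := by
    intro w hw hww
    by_contra hwY
    have hmem : n⁻¹ * w ∈ L₁ ⊔ L₂ := (Subgroup.mul_mem_iff_of_index_two hi
      (a := (⟨n⁻¹, inv_mem hn⟩ : C)) (b := ⟨w, hw⟩)).2
      ⟨fun h => absurd ((Subgroup.inv_mem_iff _).1 h) hnY, fun h => absurd h hwY⟩
    obtain ⟨a, ha, b, hb, hab⟩ := mem_sup_exists hc hmem
    have hw' : w = n * (a * b) := by rw [hab]; group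
    -- expand the square
    set a' := n * a * n⁻¹ with ha'def
    set b' := n * b * n⁻¹ with hb'def
    have ha' : a' ∈ L₂ := h12 a ha
    have hb' : b' ∈ L₁ := h21 b hb
    have hsq : w * w = a' * b' * (j * (a * b)) := by
      rw [hw', ha'def, hb'def, ← hnn]; group
    rw [hww, ← mul_assoc, mul_assoc a' b' j, hYC b' (Subgroup.mem_sup_left hb'),
      ← mul_assoc a' j b', hYC a' (Subgroup.mem_sup_right ha')] at hsq
    have hrel : (b' * a) * (a' * b) = j := by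
      have c1 := hc b' hb' a' ha'
      have c2 := hc a ha a' ha'
      calc b' * a * (a' * b) = b' * (a * a') * b := by group
        _ = b' * (a' * a) * b := by rw [c2]
        _ = (b' * a') * (a * b) := by group
        _ = a' * b' * (a * b) := by rw [c1]
        _ = j * (j * a' * b' * (a * b)) := by
          rw [show j * (j * a' * b' * (a * b)) = (j * j) * (a' * b' * (a * b)) by group, hjj,
            one_mul]
        _ = j := by rw [← hsq, mul_one]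
    have hz : b' * a ∈ L₁ ⊓ L₂ := by
      refine Subgroup.mem_inf.2 ⟨L₁.mul_mem hb' ha, ?_⟩
      have : b' * a = j * (a' * b)⁻¹ := eq_mul_inv_of_mul_eq hrel
      exact this ▸ L₂.mul_mem hjm.2 (L₂.inv_mem (L₂.mul_mem ha' hb))
    rw [hm] at hz
    obtain ⟨z, hzdef⟩ : ∃ z, b' * a = z := ⟨_, rfl⟩
    have hzc : z * z = 1 ∧ n * z * n⁻¹ = z ∧ Commute z b := by
      have hz' := eq_one_or_eq_of_mem_zpowers hj hz
      rw [hzdef] at hz'
      rcases hz' with rfl | rfl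
      · exact ⟨one_mul 1, by group, Commute.one_left b⟩
      · exact ⟨hjj, by rw [Subgroup.mem_centralizer_singleton_iff.1 hn, mul_inv_cancel_right],
          (hYC b (Subgroup.mem_sup_right hb)).symm⟩
    have ha'z : a' * b = z := by
      have hb'' : n * b' * n⁻¹ = b := by
        rw [hb'def, show n * (n * b * n⁻¹) * n⁻¹ = (n * n) * b * (n * n)⁻¹ by group]
        exact hjL b (Subgroup.mem_sup_right hb)
      have hae : a = b'⁻¹ * z := by rw [← hzdef]; group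
      calc a' * b = (n * b' * n⁻¹)⁻¹ * (n * z * n⁻¹) * b := by rw [ha'def, hae]; group
        _ = b⁻¹ * (z * b) := by rw [hb'', hzc.2.1, mul_assoc]
        _ = z := by rw [hzc.2.2.eq, ← mul_assoc, inv_mul_cancel, one_mul]
    rw [hzdef, ha'z, hzc.1] at hrel
    exact hj1 hrel.symm
  -- a suitable `x`
  obtain ⟨k, y₀, b₀, hexp, hy₀, hb₀, hby₀⟩ := exists_max_two_element hF
  have hje := map_j_eq_negOne h2 e₁ hj hjm.1
  set y : G := ((e₁.symm y₀ : L₁) : G) with hy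
  set bb : G := ((e₁.symm b₀ : L₁) : G) with hbb
  have hyL : y ∈ L₁ := (e₁.symm y₀).2
  have hbL : bb ∈ L₁ := (e₁.symm b₀).2
  have hyk : y ^ 2 ^ (k + 1) = j := by
    rw [hy, ← SubmonoidClass.coe_pow, ← map_pow, hy₀, ← hje, e₁.symm_apply_apply]
  have hbb2 : bb * bb = j := by
    rw [hbb, ← Subgroup.coe_mul, ← map_mul, hb₀, ← hje, e₁.symm_apply_apply]
  have hbby : bb * y * bb⁻¹ = y⁻¹ := by
    rw [hbb, hy, ← Subgroup.coe_inv, ← Subgroup.coe_mul, ← Subgroup.coe_mul, ← Subgroup.coe_inv,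
      ← map_inv, ← map_inv, ← map_mul, ← map_mul, hby₀]
  have hexpG : ∀ u ∈ L₁, (∃ i : ℕ, u ^ 2 ^ i = 1) → u ^ 2 ^ (k + 2) = 1 := by
    intro u hu ⟨i, hi⟩
    have := hexp (e₁ ⟨u, hu⟩) ⟨i, by
      rw [← map_pow, show (⟨u, hu⟩ : L₁) ^ 2 ^ i = 1 from Subtype.ext hi, map_one]⟩
    rw [← map_pow] at this
    exact congrArg Subtype.val (e₁.map_eq_one_iff.1 this)
  have hexp₂ : ∀ v ∈ L₂, (∃ i : ℕ, v ^ 2 ^ i = 1) → v ^ 2 ^ (k + 2) = 1 := by
    intro v hv ⟨i, hi⟩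
    have h := hexpG _ (h12' v hv) ⟨i, by
      have e := conj_pow (a := n⁻¹) (b := v) (i := 2 ^ i)
      rw [inv_inv] at e
      rw [e, hi]; group⟩
    have e := conj_pow (a := n⁻¹) (b := v) (i := 2 ^ (k + 2))
    rw [inv_inv] at e
    rw [e] at h
    calc v ^ 2 ^ (k + 2) = n * (n⁻¹ * v ^ 2 ^ (k + 2) * n) * n⁻¹ := by group
      _ = 1 := by rw [h]; group
  set r := y ^ 2 ^ k with hr
  have hrL : r ∈ L₁ := pow_mem hyL _
  have hrr : r * r = j := by rw [hr, ← pow_add, ← two_mul, ← pow_succ', hyk]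
  obtain ⟨b₁, hb₁, hb₁s, hb₁2⟩ : ∃ b₁ ∈ L₂, b₁ * s * b₁⁻¹ = s⁻¹ ∧ b₁ * b₁ = j := by
    -- transport from the first factor
    set d := n⁻¹ * s * n with hd
    have hdL := h12' s hs
    have hdd : d * d = j := by
      have h := Subgroup.mem_centralizer_singleton_iff.1 hn
      calc d * d = n⁻¹ * (s * s) * n := by rw [hd]; group
        _ = n⁻¹ * (j * n) := by rw [hss, mul_assoc]
        _ = j := by rw [← h]; group
    obtain ⟨g₁, hg₁, hg₁e⟩ := hru d hdL hdd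
    obtain ⟨g₂, hg₂, hg₂e⟩ := hru r hrL hrr
    set g := g₁ * g₂⁻¹ with hg
    have hgr : g * r * g⁻¹ = d := by
      rw [hg, ← hg₂e, ← hg₁e]; group
    have hgL : g ∈ L₁ := L₁.mul_mem hg₁ (L₁.inv_mem hg₂)
    have hbr : bb * r * bb⁻¹ = r⁻¹ := by rw [hr, ← conj_pow, hbby, inv_pow]
    refine ⟨n * (g * bb * g⁻¹) * n⁻¹,
      h12 _ (L₁.mul_mem (L₁.mul_mem hgL hbL) (L₁.inv_mem hgL)), ?_, ?_⟩
    · have hsd : s = n * (g * r * g⁻¹) * n⁻¹ := by rw [hgr, hd]; group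
      calc n * (g * bb * g⁻¹) * n⁻¹ * s * (n * (g * bb * g⁻¹) * n⁻¹)⁻¹
          = n * (g * (bb * r * bb⁻¹) * g⁻¹) * n⁻¹ := by rw [hsd]; group
        _ = s⁻¹ := by rw [hbr, hsd]; group
    · have h := Subgroup.mem_centralizer_singleton_iff.1 hn
      calc n * (g * bb * g⁻¹) * n⁻¹ * (n * (g * bb * g⁻¹) * n⁻¹)
          = n * (g * (bb * bb) * g⁻¹) * n⁻¹ := by group
        _ = n * j * n⁻¹ := by rw [hbb2, hYC g (Subgroup.mem_sup_left hgL), mul_inv_cancel_right]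
        _ = j := by rw [h, mul_inv_cancel_right]
  set x := r * s with hx
  -- `y` is a product of two involutions centralizing `x`
  set t₁ := y * (bb * b₁) with ht₁
  set t₂ := bb * b₁ with ht₂
  have hyY : y ∈ L₁ ⊔ L₂ := Subgroup.mem_sup_left hyL
  have hyx : y * x = x * y := by
    have h1 : Commute y r := hr ▸ (Commute.refl y).pow_right _
    exact (h1.mul_right (hc y hyL s hs)).eq
  have ht₂t : t₂ * t₂ = 1 := by
    have h := hc bb hbL b₁ hb₁
    calc bb * b₁ * (bb * b₁) = bb * (b₁ * bb) * b₁ := by group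
      _ = bb * (bb * b₁) * b₁ := by rw [h]
      _ = (bb * bb) * (b₁ * b₁) := by group
      _ = 1 := by rw [hbb2, hb₁2, hjj]
  have ht₂x : t₂ * x = x * t₂ := by
    have hc1 := hc bb hbL (b₁ * s * b₁⁻¹) (mul_mem (mul_mem hb₁ hs) (inv_mem hb₁))
    have hc2 := hc r hrL b₁ hb₁
    have hbr : bb * r * bb⁻¹ = r⁻¹ := by rw [hr, ← conj_pow, hbby, inv_pow]
    have hc3 := hc r hrL s hs
    have hri : r⁻¹ = j * r := inv_eq_of_mul_eq_one_right (by
      rw [← mul_assoc, hYC r (Subgroup.mem_sup_left hrL), mul_assoc, hrr, hjj])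
    have hsi : s⁻¹ = j * s := inv_eq_of_mul_eq_one_right (by
      rw [← mul_assoc, hYC s (Subgroup.mem_sup_right hs), mul_assoc, hss, hjj])
    have hconj : t₂ * x * t₂⁻¹ = x := by
      calc bb * b₁ * (r * s) * (bb * b₁)⁻¹ = bb * (b₁ * r) * s * b₁⁻¹ * bb⁻¹ := by group
        _ = bb * (r * b₁) * s * b₁⁻¹ * bb⁻¹ := by rw [hc2]
        _ = (bb * r * bb⁻¹) * (bb * (b₁ * s * b₁⁻¹)) * bb⁻¹ := by group
        _ = (bb * r * bb⁻¹) * ((b₁ * s * b₁⁻¹) * bb) * bb⁻¹ := by rw [hc1]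
        _ = r⁻¹ * s⁻¹ := by rw [hbr, hb₁s]; group
        _ = j * r * (j * s) := by rw [hri, hsi]
        _ = (j * j) * (r * s) := by
          rw [mul_assoc, ← mul_assoc r j s, hYC r (Subgroup.mem_sup_left hrL)]; group
        _ = x := by rw [hjj, one_mul]
    exact mul_inv_eq_iff_eq_mul.1 hconj
  have ht₂y : t₂ * y * t₂⁻¹ = y⁻¹ := by
    calc bb * b₁ * y * (bb * b₁)⁻¹ = bb * (b₁ * y) * b₁⁻¹ * bb⁻¹ := by group
      _ = bb * (y * b₁) * b₁⁻¹ * bb⁻¹ := by rw [hc y hyL b₁ hb₁]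
      _ = y⁻¹ := by rw [← hbby]; group
  have ht₁t : t₁ * t₁ = 1 := by
    have ht₂i : t₂⁻¹ = t₂ := inv_eq_of_mul_eq_one_right ht₂t
    rw [ht₂i] at ht₂y
    show y * t₂ * (y * t₂) = 1
    calc y * t₂ * (y * t₂) = y * (t₂ * y * t₂) := by group
      _ = 1 := by rw [ht₂y, mul_inv_cancel]
  -- isolation
  intro g hg
  set t := g * j * g⁻¹ with htdef
  have htC : t ∈ C := Subgroup.mem_centralizer_singleton_iff.2 hg.symm
  have htt : t * t = 1 := by
    calc g * j * g⁻¹ * (g * j * g⁻¹) = g * (j * j) * g⁻¹ := by group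
      _ = 1 := by rw [hjj]; group
  obtain ⟨a, ha, b, hb, hab⟩ := mem_sup_exists hc (hinvY t htC htt)
  by_contra htj
  have haa : (a * a) * (b * b) = 1 := by
    rw [← htt, ← hab]
    calc a * a * (b * b) = a * (a * b) * b := by group
      _ = a * (b * a) * b := by rw [hc a ha b hb]
      _ = _ := by group
  have ha2 : a * a = 1 ∨ a * a = j := by
    have h1 : a * a ∈ L₁ ⊓ L₂ := Subgroup.mem_inf.2 ⟨L₁.mul_mem ha ha,
      (eq_inv_of_mul_eq_one_left haa) ▸ L₂.inv_mem (L₂.mul_mem hb hb)⟩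
    rw [hm] at h1
    exact eq_one_or_eq_of_mem_zpowers hj h1
  rcases ha2 with ha2 | ha2
  · rw [ha2, one_mul] at haa
    have ht1 : t ≠ 1 := fun h => hj1 (conj_eq_one_iff.1 h)
    rcases sq_one_mem h2 e₁ hj hjm.1 ha ha2 with h0 | h0 <;>
      rcases sq_one_mem (two_ne_zero_of_odd hE) e₂ hj hjm.2 hb haa with h0' | h0' <;>
      rw [h0, h0'] at hab <;>
      first
        | (rw [one_mul] at hab; first | exact ht1 hab.symm | exact htj hab.symm)
        | (rw [mul_one] at hab; first | exact ht1 hab.symm | exact htj hab.symm)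
        | (rw [hjj] at hab; exact ht1 hab.symm)
  rw [ha2] at haa
  have hb2 : b * b = j := by rw [eq_inv_of_mul_eq_one_right haa, hji]
  obtain ⟨c₁, hc₁, hc₁e⟩ := hru a ha ha2
  obtain ⟨c₂, hc₂, hc₂e⟩ := hru r hrL hrr
  obtain ⟨c₃, hc₃, hc₃e⟩ := hsu b hb hb2
  set c := c₁ * c₂⁻¹ * c₃ with hcdef
  have hcc : c * x * c⁻¹ = t := by
    have h1 : c₁ * c₂⁻¹ * r * (c₁ * c₂⁻¹)⁻¹ = a := by rw [← hc₂e, ← hc₁e]; group
    set c12 := c₁ * c₂⁻¹
    have hc12 : c12 ∈ L₁ := mul_mem hc₁ (inv_mem hc₂)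
    have e1 := hc r hrL c₃ hc₃
    have e2 := hc c12 hc12 (c₃ * s * c₃⁻¹) (mul_mem (mul_mem hc₃ hs) (inv_mem hc₃))
    calc c * x * c⁻¹ = c12 * (c₃ * r) * s * c₃⁻¹ * c12⁻¹ := by rw [hcdef, hx]; group
      _ = c12 * (r * c₃) * s * c₃⁻¹ * c12⁻¹ := by rw [e1]
      _ = (c12 * r * c12⁻¹) * (c12 * (c₃ * s * c₃⁻¹)) * c12⁻¹ := by group
      _ = (c12 * r * c12⁻¹) * ((c₃ * s * c₃⁻¹) * c12) * c12⁻¹ := by rw [e2]
      _ = a * b := by rw [h1, hc₃e]; group
      _ = t := hab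
  -- `h` maps `x` to `j`
  set h := g⁻¹ * c with hhdef
  have hhx : h * x * h⁻¹ = j := by
    calc h * x * h⁻¹ = g⁻¹ * (c * x * c⁻¹) * g := by rw [hhdef]; group
      _ = j := by rw [hcc, htdef]; group
  have hcenh : ∀ u, u * x = x * u → h * u * h⁻¹ ∈ C := by
    intro u hu
    apply Subgroup.mem_centralizer_singleton_iff.2
    rw [← hhx]
    calc h * u * h⁻¹ * (h * x * h⁻¹) = h * (u * x) * h⁻¹ := by group
      _ = h * (x * u) * h⁻¹ := by rw [hu]
      _ = _ := by group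
  have hconj2 : ∀ u, u * u = 1 → h * u * h⁻¹ * (h * u * h⁻¹) = 1 := fun u hu => by
    calc h * u * h⁻¹ * (h * u * h⁻¹) = h * (u * u) * h⁻¹ := by group
      _ = 1 := by rw [hu]; group
  have ht₁x : t₁ * x = x * t₁ := by
    rw [ht₁, mul_assoc, ht₂x, ← mul_assoc, hyx, mul_assoc]
  have himY : h * y * h⁻¹ ∈ L₁ ⊔ L₂ := by
    have e : h * y * h⁻¹ = (h * t₁ * h⁻¹) * (h * t₂ * h⁻¹) := by
      rw [show (h * t₁ * h⁻¹) * (h * t₂ * h⁻¹) = h * (t₁ * t₂) * h⁻¹ by group,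
        show t₁ * t₂ = y * (t₂ * t₂) by rw [ht₁, mul_assoc], ht₂t, mul_one]
    rw [e]
    exact mul_mem (hinvY _ (hcenh t₁ ht₁x) (hconj2 t₁ ht₁t))
      (hinvY _ (hcenh t₂ ht₂x) (hconj2 t₂ ht₂t))
  obtain ⟨u, hu, v, hv, huv⟩ := mem_sup_exists hc himY
  have hy2 : y ^ 2 ^ (k + 2) = 1 := by rw [pow_succ 2 (k + 1), pow_mul, hyk, pow_two, hjj]
  obtain ⟨hu1, hv1⟩ := mem_two_elements hc hj hm hu hv (n := 2 ^ (k + 2))
    (by rw [huv, conj_pow, hy2, mul_one, mul_inv_cancel])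
  have hu2 : u ^ 2 ^ (k + 2) = 1 := hexpG u hu ⟨k + 3, by
    rw [pow_succ 2 (k + 2), pow_mul]
    rcases hu1 with h0 | h0 <;> rw [h0, pow_two] <;> simp [hjj]⟩
  have hv2 : v ^ 2 ^ (k + 2) = 1 := hexp₂ v hv ⟨k + 3, by
    rw [pow_succ 2 (k + 2), pow_mul]
    rcases hv1 with h0 | h0 <;> rw [h0, pow_two] <;> simp [hjj]⟩
  have hsq1 : ∀ w : G, w ^ 2 ^ (k + 2) = 1 → w ^ 2 ^ (k + 1) * w ^ 2 ^ (k + 1) = 1 := fun w hw => by
    rw [← pow_add, ← two_mul, ← pow_succ', hw]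
  have hval : h * j * h⁻¹ = 1 ∨ h * j * h⁻¹ = j := by
    rw [← hyk, ← conj_pow, ← huv, (show Commute u v from hc u hu v hv).mul_pow, hyk]
    rcases sq_one_mem h2 e₁ hj hjm.1 (L₁.pow_mem hu _) (hsq1 u hu2) with h0 | h0 <;>
      rcases sq_one_mem (two_ne_zero_of_odd hE) e₂ hj hjm.2 (L₂.pow_mem hv _) (hsq1 v hv2)
        with h0' | h0' <;> rw [h0, h0'] <;> simp [hjj]
  rcases hval with h0 | h0
  · exact hj1 (conj_eq_one_iff.1 h0)
  -- so `x = j`
  have hxj : x = j := mul_left_cancel (mul_right_cancel (hhx.trans h0.symm))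
  have : s ∈ L₁ ⊓ L₂ := by
    refine Subgroup.mem_inf.2 ⟨?_, hs⟩
    have : s = r⁻¹ * j := by rw [← hxj, hx]; group
    exact this ▸ L₁.mul_mem (L₁.inv_mem hrL) hjm.1
  rw [hm] at this
  rcases eq_one_or_eq_of_mem_zpowers hj this with h' | h' <;> rw [h'] at hss
  · rw [one_mul] at hss; exact hj1 hss.symm
  · rw [hjj] at hss; exact hj1 hss.symm

/-- An involution central modulo `O(G)`: the group is `C(t) O(G)`. -/
theorem centralizer_sup_eq_top [Finite G] {t : G} (ht : orderOf t = 2) (h : Cfsg.InZStar 2 t) :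
    Subgroup.centralizer ({t} : Set G) ⊔ Cfsg.pPrimeCore 2 G = ⊤ := by
  haveI : Fact (Nat.Prime 2) := ⟨Nat.prime_two⟩
  have htt : t * t = 1 := by
    have := pow_orderOf_eq_one t
    rw [ht, pow_two] at this
    exact this
  have hti : t⁻¹ = t := inv_eq_of_mul_eq_one_right htt
  rw [eq_top_iff]
  intro g _
  set o := g * t * g⁻¹ * t⁻¹ with hodef
  have ho : o ∈ Cfsg.pPrimeCore 2 G := h g
  have hot : o * t = g * t * g⁻¹ := by rw [hodef]; group
  have hinv : t * o * t⁻¹ = o⁻¹ := by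
    have h1 : o * t * (o * t) = 1 := by
      rw [hot]
      calc g * t * g⁻¹ * (g * t * g⁻¹) = g * (t * t) * g⁻¹ := by group
        _ = 1 := by rw [htt]; group
    rw [hti]
    refine eq_inv_of_mul_eq_one_right ?_
    calc o * (t * o * t) = o * t * (o * t) := by group
      _ = 1 := h1
  obtain ⟨m, hm⟩ : Odd (orderOf o) := by
    rw [← Nat.not_even_iff_odd, even_iff_two_dvd]
    intro h2
    exact CfsgLib.Constrained.pPrimeCore_not_dvd
      (h2.trans (Subgroup.orderOf_dvd_natCard _ ho))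
  set x := o ^ (m + 1) with hxdef
  have hxx : x * x = o := by
    rw [hxdef, ← pow_add, show (m + 1) + (m + 1) = orderOf o + 1 by omega, pow_succ,
      pow_orderOf_eq_one, one_mul]
  have hxt : t * x * t⁻¹ = x⁻¹ := by rw [hxdef, ← conj_pow, hinv, inv_pow]
  have hgx : x⁻¹ * g ∈ Subgroup.centralizer ({t} : Set G) := by
    apply Subgroup.mem_centralizer_singleton_iff.2
    have e : x⁻¹ * (g * t * g⁻¹) * x = t := by
      calc x⁻¹ * (g * t * g⁻¹) * x = x⁻¹ * (x * x * t) * x := by rw [← hot, hxx]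
        _ = x * (t * x * t⁻¹) * t := by group
        _ = t := by rw [hxt]; group
    calc x⁻¹ * g * t = (x⁻¹ * (g * t * g⁻¹) * x) * (x⁻¹ * g) := by group
      _ = t * (x⁻¹ * g) := by rw [e]
  rw [show g = x * (x⁻¹ * g) by group]
  exact mul_mem (Subgroup.mem_sup_right (pow_mem ho _)) (Subgroup.mem_sup_left hgx)

end CfsgLib.CommutingSLTwo
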